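import Cfsg.Agent.H177.OM.GTwoNum

/-!
# TEAM ODDM (S4785): subgroups of odd index of `G₂(q)`, `q` odd, containing the tori of the classes 3 and 6
-/

set_option autoImplicit false

namespace Cfsg.Agent.H177.OM

open Cfsg Cfsg.Agent.OrdDiv Cfsg.Agent.H902 Cfsg.Agent.H290.ElReg Cfsg.Agent.H290.ElTab Cfsg.Agent.H290.ElCross
  Cfsg.Agent.H563.KG
open Cfsg.Agent.H436 (Prim)

variable {q : ℕ}

/-! ### arithmetic -/

theorem n3_ge (hq : 3 ≤ q) (hodd : ¬ 2 ∣ q) : 13 ≤ n3 q := by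
  have h1 : q ^ 2 + q + 1 ≤ n3 q * 3 := by
    conv_lhs => rw [← n3_mul q]
    exact Nat.mul_le_mul_left _ (Nat.le_of_dvd (by norm_num) (Nat.gcd_dvd_left _ _))
  rcases Nat.lt_or_ge q 7 with h | h
  · have h2 : q = 3 ∨ q = 5 := by omega
    rcases h2 with rfl | rfl <;> decide
  · have h3 : 7 * 7 ≤ q * q := Nat.mul_le_mul h h
    have h4 : q ^ 2 = q * q := sq q
    omega

theorem n3_gt (hq : 5 ≤ q) (hodd : ¬ 2 ∣ q) : 14 < n3 q := by
  have h1 : q ^ 2 + q + 1 ≤ n3 q * 3 := by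
    conv_lhs => rw [← n3_mul q]
    exact Nat.mul_le_mul_left _ (Nat.le_of_dvd (by norm_num) (Nat.gcd_dvd_left _ _))
  rcases Nat.lt_or_ge q 7 with h | h
  · have h2 : q = 5 := by omega
    subst h2
    decide
  · have h3 : 7 * 7 ≤ q * q := Nat.mul_le_mul h h
    have h4 : q ^ 2 = q * q := sq q
    omega

theorem n6_ge (hq : 3 ≤ q) (hodd : ¬ 2 ∣ q) : 7 ≤ n6 q := by
  have h1 : q ^ 2 - q + 1 ≤ n6 q * 3 := by
    conv_lhs => rw [← n6_mul q]
    exact Nat.mul_le_mul_left _ (Nat.le_of_dvd (by norm_num) (Nat.gcd_dvd_left _ _))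
  rcases Nat.lt_or_ge q 7 with h | h
  · have h2 : q = 3 ∨ q = 5 := by omega
    rcases h2 with rfl | rfl <;> decide
  · have h3 : 7 * q ≤ q * q := Nat.mul_le_mul_right q h
    have h4 : q ^ 2 = q * q := sq q
    omega

theorem n6_gt (hq : 7 ≤ q) : 14 < n6 q := by
  have h1 : q ^ 2 - q + 1 ≤ n6 q * 3 := by
    conv_lhs => rw [← n6_mul q]
    exact Nat.mul_le_mul_left _ (Nat.le_of_dvd (by norm_num) (Nat.gcd_dvd_left _ _))
  have h3 : 7 * q ≤ q * q := Nat.mul_le_mul_right q hq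
  have h4 : q ^ 2 = q * q := sq q
  omega

/-- the multiplication of the two numbers -/
theorem mul_dvd {N : ℕ} (ha : n3 q ∣ N) (hb : n6 q ∣ N) : n3 q * n6 q ∣ N :=
  (coprime_n q).mul_dvd_of_dvd_of_dvd ha hb

theorem mod6 {r : ℕ} (hq : 2 ≤ q) (h : Prim q 3 r ∨ Prim q 6 r) : (r - 1) % 6 = 0 ∧ 7 ≤ r := by
  rcases h with h | h
  · have h1 := mod_of_prim hq (by norm_num) h
    have h2 := h.prime.two_le
    have h3 := Cfsg.Agent.H190.Exc.prim_gt h (by omega)
    have h4 := h.prime.eq_two_or_odd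
    omega
  · have h1 := mod_of_prim hq (by norm_num) h
    have h3 := Cfsg.Agent.H190.Exc.prim_gt h (by omega)
    omega

/-- cross characteristic -/
theorem no_cross_g2 {X : Art.Sh} {l a N : ℕ}
    (hR : Art.Real X l a N) (hlb : lb X (l ^ a) ≤ 14) (hq3 : 3 ≤ q) (hodd : ¬ 2 ∣ q) (hlq : l = 3 → ¬ 3 ∣ q)
    (hab : n3 q * n6 q ∣ N) (hd : N ∣ og q) (h32 : 32 ∣ N) : False := by
  obtain ⟨hl, ha, hokX, heq⟩ := hR
  have hreg := mem_reg (by norm_num) hl ha hokX hlb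
  have hs' : smooth (NA X l a) = true :=
    List.all_eq_true.1 smooth_reg (X, (l, a)) (mem_reg le_rfl hl ha hokX (hlb.trans (by norm_num)))
  have hsS : smooth (NS X l a) = true := by
    have h1 : NS X l a ∣ NA X l a := Dvd.intro_left _ rfl
    have h2 : NA X l a ∣ prs.prod ^ 100 := Nat.dvd_of_mod_eq_zero (by simpa [smooth] using hs')
    simpa [smooth] using Nat.mod_eq_zero_of_dvd (h1.trans h2)
  have hM : OL X (l ^ a) = Art.dd X (l ^ a) * N := by unfold OL; rw [numL_eq]; exact heq.symm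
  have hNM : N ∣ OL X (l ^ a) := Dvd.intro_left _ hM.symm
  have hNS : ∀ r, r.Prime → r ∣ N → r ∣ NS X l a := by
    intro r hr h
    unfold NS
    have h1 : r ∣ (l ^ a) ^ Art.NN X * numL X (l ^ a) := h.trans hNM
    rcases hr.dvd_mul.1 h1 with h2 | h2
    · exact (hr.dvd_of_dvd_pow (hr.dvd_of_dvd_pow h2)).mul_right _
    · exact h2.mul_left _
  have ht := List.all_eq_true.1 tg_reg (X, (l, a)) hreg
  simp only [tg, Bool.and_eq_true, Nat.ble_eq, Nat.blt_eq, Bool.or_eq_true, beq_iff_eq] at ht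
  obtain ⟨⟨ht1, ht2⟩, ht3⟩ := ht
  have hM0 : OL X (l ^ a) ≠ 0 := by
    intro h0
    have h3 : l ^ a ≠ 0 := pow_ne_zero _ hl.ne_zero
    have h4 : NS X l a ≠ 0 := by
      intro h5
      have h6 : NS X l a ∣ prs.prod ^ 100 := Nat.dvd_of_mod_eq_zero (by simpa [smooth] using hsS)
      rw [h5] at h6
      have h7 := Nat.eq_zero_of_zero_dvd h6
      have h8 : prs.prod ≠ 0 := by decide +kernel
      exact pow_ne_zero 100 h8 h7
    apply h4
    unfold OL at h0
    rcases Nat.mul_eq_zero.1 h0 with h5 | h5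
    · exact absurd h5 (pow_ne_zero _ h3)
    · unfold NS
      rw [h5, mul_zero]
  have hq2 : 2 ≤ q := by omega
  have h1 : n3 q * n6 q ∣ De (pd (NS X l a)) (OL X (l ^ a)) 6 := by
    refine dvd_De hM0 ht2 (hab.trans hNM) fun r hr hrd => ?_
    have hprim : Prim q 3 r ∨ Prim q 6 r :=
      (hr.dvd_mul.1 hrd).imp (prim3 (by omega) hr) (prim6 (by omega) hr)
    exact ⟨mem_pd hsS hr (hNS r hr (hrd.trans hab)), (mod6 hq2 hprim).1⟩
  have h2 : n3 q * n6 q ≤ 91 := by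
    have h3 : De (pd (NS X l a)) (OL X (l ^ a)) 6 ≠ 0 := by
      unfold De
      intro h4
      rw [List.prod_eq_zero_iff, List.mem_map] at h4
      obtain ⟨r, -, h5⟩ := h4
      exact hM0 (Nat.eq_zero_of_gcd_eq_zero_left h5)
    exact (Nat.le_of_dvd (Nat.pos_of_ne_zero h3) h1).trans ht1
  have h3 : q = 3 := by
    have h4 := mul_large hq3
    have h5 : q < 7 := by
      by_contra hcon
      have h6 : 7 ^ 4 ≤ q ^ 4 := Nat.pow_le_pow_left (by omega) 4
      omega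
    have h6 : q = 3 ∨ q = 5 := by omega
    rcases h6 with h6 | h6
    · exact h6
    · exfalso
      subst h6
      revert h2
      decide
  subst h3
  rcases ht3 with h4 | h4
  · exact hlq h4 dvd_rfl
  · have h5 : OL X (l ^ a) % 91 = 0 := by
      refine Nat.mod_eq_zero_of_dvd (dvd_trans ?_ (hab.trans hNM))
      decide
    have h6 : Art.dd X (l ^ a) * og 3 % OL X (l ^ a) = 0 := by
      rw [hM]
      exact Nat.mod_eq_zero_of_dvd (Nat.mul_dvd_mul_left _ hd)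
    have h7 : OL X (l ^ a) % (32 * Art.dd X (l ^ a)) = 0 := by
      rw [hM, mul_comm 32]
      exact Nat.mod_eq_zero_of_dvd (Nat.mul_dvd_mul_left _ h32)
    rw [h5, h6, h7] at h4
    simp at h4

/-- sporadic groups -/
theorem no_spor_g2 {x : Grp × ℕ} (hx : x ∈ spor) (hq3 : 3 ≤ q) (hodd : ¬ 2 ∣ q)
    (hab : n3 q * n6 q ∣ x.2) (hd : x.2 ∣ og q) : False := by
  have hs' : smooth x.2 = true := List.all_eq_true.1 smooth_spor x hx
  have ht := List.all_eq_true.1 tsp_all x hx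
  simp only [tsp, Bool.and_eq_true, Nat.ble_eq, Nat.blt_eq] at ht
  obtain ⟨⟨ht1, ht2⟩, ht3⟩ := ht
  have hM0 : x.2 ≠ 0 := by
    have : ∀ x ∈ spor, x.2 ≠ 0 := by decide +kernel
    exact this x hx
  have hq2 : 2 ≤ q := by omega
  have h1 : n3 q * n6 q ∣ De (pd x.2) x.2 6 := by
    refine dvd_De hM0 ht2 hab fun r hr hrd => ?_
    have hprim : Prim q 3 r ∨ Prim q 6 r :=
      (hr.dvd_mul.1 hrd).imp (prim3 (by omega) hr) (prim6 (by omega) hr)
    exact ⟨mem_pd hs' hr (hrd.trans hab), (mod6 hq2 hprim).1⟩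
  have h2 : n3 q * n6 q ≤ 2 * 10 ^ 11 := by
    have h3 : De (pd x.2) x.2 6 ≠ 0 := by
      unfold De
      intro h4
      rw [List.prod_eq_zero_iff, List.mem_map] at h4
      obtain ⟨r, -, h5⟩ := h4
      exact hM0 (Nat.eq_zero_of_gcd_eq_zero_left h5)
    exact (Nat.le_of_dvd (Nat.pos_of_ne_zero h3) h1).trans ht1
  have h4 := mul_large hq3
  have h5 : q < 1200 := by
    by_contra hcon
    have h6 : 1200 ^ 4 ≤ q ^ 4 := Nat.pow_le_pow_left (by omega) 4
    omega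
  have h6 := List.all_eq_true.1 ht3 ((q - 3) / 2) (List.mem_range.2 (by omega))
  have h7 : 2 * ((q - 3) / 2) + 3 = q := by omega
  rw [h7, Nat.mod_eq_zero_of_dvd h1, Nat.mod_eq_zero_of_dvd hd] at h6
  simp at h6

end Cfsg.Agent.H177.OM
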