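import Cfsg.Agent.H563.KG.Tab
import Cfsg.Agent.H177.OM.GTwoReal

/-!
# TEAM ODDM (S4785): `G₂(q)`, `q` odd: arithmetic and cross characteristic
-/

set_option autoImplicit false
set_option exponentiation.threshold 700

namespace Cfsg.Agent.H177.OM

open Cfsg.Agent.H902 Cfsg.Agent.H290.ElReg Cfsg.Agent.H290.ElTab Cfsg.Agent.H290.ElCross Cfsg.Agent.H563.KG
open Cfsg.Agent.H436 (Prim)

/-- the part of `q² + q + 1` prime to 3 -/
def n3 (q : ℕ) : ℕ := (q ^ 2 + q + 1) / Nat.gcd 3 (q ^ 2 + q + 1)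

/-- the part of `q² - q + 1` prime to 3 -/
def n6 (q : ℕ) : ℕ := (q ^ 2 - q + 1) / Nat.gcd 3 (q ^ 2 - q + 1)

variable {q : ℕ}

theorem n3_mul (q : ℕ) : n3 q * Nat.gcd 3 (q ^ 2 + q + 1) = q ^ 2 + q + 1 :=
  Nat.div_mul_cancel (Nat.gcd_dvd_right _ _)

theorem n6_mul (q : ℕ) : n6 q * Nat.gcd 3 (q ^ 2 - q + 1) = q ^ 2 - q + 1 :=
  Nat.div_mul_cancel (Nat.gcd_dvd_right _ _)

theorem gcd3 (n : ℕ) : Nat.gcd 3 n = 1 ∨ Nat.gcd 3 n = 3 := (Nat.dvd_prime Nat.prime_three).1 (Nat.gcd_dvd_left 3 n)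

theorem nine_aux : ∀ x : ZMod 9, x ^ 2 + x + 1 ≠ 0 := by decide

theorem nine_aux' : ∀ x : ZMod 9, x ^ 2 - x + 1 ≠ 0 := by decide

theorem two_aux : ∀ x : ZMod 2, x ^ 2 + x + 1 ≠ 0 := by decide

theorem two_aux' : ∀ x : ZMod 2, x ^ 2 - x + 1 ≠ 0 := by decide

theorem not_two (q : ℕ) : ¬ 2 ∣ q ^ 2 + q + 1 := by
  intro h
  have h1 := (ZMod.natCast_eq_zero_iff _ 2).2 h
  push_cast at h1
  exact two_aux _ h1

theorem not_two' (q : ℕ) : ¬ 2 ∣ q ^ 2 - q + 1 := by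
  intro h
  have hle : q ≤ q ^ 2 := Nat.le_self_pow (by norm_num) q
  have h1 := (ZMod.natCast_eq_zero_iff _ 2).2 h
  rw [Nat.cast_add, Nat.cast_sub hle] at h1
  push_cast at h1
  exact two_aux' _ h1

theorem not_nine (q : ℕ) : ¬ 9 ∣ q ^ 2 + q + 1 := by
  intro h
  have h1 := (ZMod.natCast_eq_zero_iff _ 9).2 h
  push_cast at h1
  exact nine_aux _ h1

theorem not_nine' (q : ℕ) : ¬ 9 ∣ q ^ 2 - q + 1 := by
  intro h
  have hle : q ≤ q ^ 2 := Nat.le_self_pow (by norm_num) q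
  have h1 := (ZMod.natCast_eq_zero_iff _ 9).2 h
  rw [Nat.cast_add, Nat.cast_sub hle] at h1
  push_cast at h1
  exact nine_aux' _ h1

theorem three_n3 : ¬ 3 ∣ n3 q := by
  intro h
  have h1 := n3_mul q
  rcases gcd3 (q ^ 2 + q + 1) with h2 | h2
  · rw [h2, mul_one] at h1
    rw [h1] at h
    have h3 := Nat.gcd_eq_left h
    omega
  · rw [h2] at h1
    apply not_nine q
    rw [← h1]
    exact Nat.mul_dvd_mul h (dvd_refl 3)

theorem three_n6 : ¬ 3 ∣ n6 q := by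
  intro h
  have h1 := n6_mul q
  rcases gcd3 (q ^ 2 - q + 1) with h2 | h2
  · rw [h2, mul_one] at h1
    rw [h1] at h
    have h3 := Nat.gcd_eq_left h
    omega
  · rw [h2] at h1
    apply not_nine' q
    rw [← h1]
    exact Nat.mul_dvd_mul h (dvd_refl 3)

theorem n3_dvd : n3 q ∣ q ^ 2 + q + 1 := Dvd.intro _ (n3_mul q)

theorem n6_dvd : n6 q ∣ q ^ 2 - q + 1 := Dvd.intro _ (n6_mul q)

/-- the primes of `n3 q` -/
theorem prim3 (hq : 1 ≤ q) {r : ℕ} (hr : r.Prime) (h : r ∣ n3 q) : Prim q 3 r := by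
  have h1 : r ∣ q ^ 2 + q + 1 := h.trans n3_dvd
  have := Fact.mk hr
  have h2 : (q : ZMod r) ^ 2 + q + 1 = 0 := by
    have := (ZMod.natCast_eq_zero_iff _ r).2 h1
    push_cast at this
    exact this
  refine prim_mk hr hq (by norm_num) (by linear_combination ((q : ZMod r) - 1) * h2) ?_
  intro s hs hs3
  obtain rfl := (Nat.prime_dvd_prime_iff_eq hs Nat.prime_three).1 hs3
  intro h3
  rw [show 3 / 3 = 1 from rfl, pow_one] at h3
  rw [h3] at h2
  have h4 : ((3 : ℕ) : ZMod r) = 0 := by push_cast; linear_combination h2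
  have h5 := (Nat.prime_dvd_prime_iff_eq hr Nat.prime_three).1 ((ZMod.natCast_eq_zero_iff _ r).1 h4)
  subst h5
  exact three_n3 h

/-- the primes of `n6 q` -/
theorem prim6 (hq : 1 ≤ q) {r : ℕ} (hr : r.Prime) (h : r ∣ n6 q) : Prim q 6 r := by
  have h1 : r ∣ q ^ 2 - q + 1 := h.trans n6_dvd
  have hle : q ≤ q ^ 2 := Nat.le_self_pow (by norm_num) q
  have := Fact.mk hr
  have h2 : (q : ZMod r) ^ 2 - q + 1 = 0 := by
    have := (ZMod.natCast_eq_zero_iff _ r).2 h1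
    rw [Nat.cast_add, Nat.cast_sub hle] at this
    push_cast at this
    exact this
  have hr2 : r ≠ 2 := by
    rintro rfl
    exact not_two' q h1
  have hcube : (q : ZMod r) ^ 3 = -1 := by linear_combination ((q : ZMod r) + 1) * h2
  refine prim_mk hr hq (by norm_num) (by linear_combination ((q : ZMod r) ^ 3 - 1) * hcube) ?_
  intro s hs hs6
  have h6 : s = 2 ∨ s = 3 := by
    rcases (hs.dvd_mul (m := 2) (n := 3)).1 hs6 with h | h
    · exact Or.inl ((Nat.prime_dvd_prime_iff_eq hs Nat.prime_two).1 h)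
    · exact Or.inr ((Nat.prime_dvd_prime_iff_eq hs Nat.prime_three).1 h)
  rcases h6 with rfl | rfl
  · rw [show 6 / 2 = 3 from rfl, hcube]
    intro h3
    have h4 : ((2 : ℕ) : ZMod r) = 0 := by push_cast; linear_combination -h3
    exact hr2 ((Nat.prime_dvd_prime_iff_eq hr Nat.prime_two).1 ((ZMod.natCast_eq_zero_iff _ r).1 h4))
  · rw [show 6 / 3 = 2 from rfl]
    intro h3
    have h4 : (q : ZMod r) = 2 := by linear_combination -h2 + h3
    have h5 : ((3 : ℕ) : ZMod r) = 0 := by rw [h4] at h3; push_cast; linear_combination h3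
    have h7 := (Nat.prime_dvd_prime_iff_eq hr Nat.prime_three).1 ((ZMod.natCast_eq_zero_iff _ r).1 h5)
    subst h7
    exact three_n6 h

/-- a divisor of `n3 q` -/
theorem dvd_n3 {r : ℕ} (hq : 1 ≤ q) (h : Prim q 3 r) : r ∣ n3 q := by
  have h1 := phi3 h hq
  rw [← n3_mul q] at h1
  refine (h.prime.dvd_mul.1 h1).resolve_right fun h2 => ?_
  have h3 := Nat.le_of_dvd (by norm_num) (h2.trans (Nat.gcd_dvd_left _ _))
  have h4 := Cfsg.Agent.H190.Exc.prim_gt h hq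
  omega

theorem dvd_n6 {r : ℕ} (hq : 1 ≤ q) (h : Prim q 6 r) : r ∣ n6 q := by
  have h1 := phi6 h hq
  rw [← n6_mul q] at h1
  refine (h.prime.dvd_mul.1 h1).resolve_right fun h2 => ?_
  have h3 := Nat.le_of_dvd (by norm_num) (h2.trans (Nat.gcd_dvd_left _ _))
  have h4 := Cfsg.Agent.H190.Exc.prim_gt h hq
  omega

theorem coprime36 (q : ℕ) : Nat.Coprime (q ^ 2 + q + 1) (q ^ 2 - q + 1) := by
  have hle : q ≤ q ^ 2 := Nat.le_self_pow (by norm_num) q
  rw [Nat.coprime_iff_gcd_eq_one]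
  by_contra hne
  obtain ⟨r, hr, hrd⟩ := Nat.exists_prime_and_dvd hne
  have h1 := hrd.trans (Nat.gcd_dvd_left _ _)
  have h2 := hrd.trans (Nat.gcd_dvd_right _ _)
  have := Fact.mk hr
  have h3 : (q : ZMod r) ^ 2 + q + 1 = 0 := by
    have := (ZMod.natCast_eq_zero_iff _ r).2 h1
    push_cast at this
    exact this
  have h4 : (q : ZMod r) ^ 2 - q + 1 = 0 := by
    have := (ZMod.natCast_eq_zero_iff _ r).2 h2
    rw [Nat.cast_add, Nat.cast_sub hle] at this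
    push_cast at this
    exact this
  have hr2 : r ≠ 2 := by
    rintro rfl
    exact not_two q h1
  have h5 : ((2 : ℕ) : ZMod r) * q = 0 := by push_cast; linear_combination h3 - h4
  rcases mul_eq_zero.1 h5 with h6 | h6
  · exact hr2 ((Nat.prime_dvd_prime_iff_eq hr Nat.prime_two).1 ((ZMod.natCast_eq_zero_iff _ r).1 h6))
  · rw [h6] at h3
    simp at h3

theorem coprime_n (q : ℕ) : Nat.Coprime (n3 q) (n6 q) :=
  Nat.Coprime.of_dvd n3_dvd n6_dvd (coprime36 q)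

/-- the product is large -/
theorem mul_large (hq : 3 ≤ q) : q ^ 4 ≤ 9 * (n3 q * n6 q) := by
  have hle : q ≤ q ^ 2 := Nat.le_self_pow (by norm_num) q
  have h1 : q ^ 2 + q + 1 ≤ n3 q * 3 := by
    conv_lhs => rw [← n3_mul q]
    exact Nat.mul_le_mul_left _ (Nat.le_of_dvd (by norm_num) (Nat.gcd_dvd_left _ _))
  have h2 : q ^ 2 - q + 1 ≤ n6 q * 3 := by
    conv_lhs => rw [← n6_mul q]
    exact Nat.mul_le_mul_left _ (Nat.le_of_dvd (by norm_num) (Nat.gcd_dvd_left _ _))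
  have h3 : (q ^ 2 + q + 1) * (q ^ 2 - q + 1) = q ^ 4 + q ^ 2 + 1 := by
    zify [hle]
    ring
  have h4 := Nat.mul_le_mul h1 h2
  rw [h3] at h4
  have h5 : n3 q * 3 * (n6 q * 3) = 9 * (n3 q * n6 q) := by ring
  omega

/-- the order of `G₂(q)` -/
def og (q : ℕ) : ℕ := q ^ 6 * ((q ^ 2 - 1) * (q ^ 6 - 1))

/-- cross characteristic: the test -/
def tg (x : Art.Sh × ℕ × ℕ) : Bool :=
  let M := OL x.1 (x.2.1 ^ x.2.2)
  let d := Art.dd x.1 (x.2.1 ^ x.2.2)
  Nat.ble (De (pd (NS x.1 x.2.1 x.2.2)) M 6) 91 && Nat.blt M (2 ^ 600) && (x.2.1 == 3 ||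
    !(M % 91 == 0 && (d * og 3) % M == 0 && M % (32 * d) == 0))

theorem tg_reg : ((reg 14).all tg) = true := by decide +kernel

/-- sporadic groups: the test -/
def tsp (x : Cfsg.Agent.OrdDiv.Grp × ℕ) : Bool :=
  let D := De (pd x.2) x.2 6
  Nat.ble D (2 * 10 ^ 11) && Nat.blt x.2 (2 ^ 600) && ((List.range 600).all fun k =>
    !(D % (n3 (2 * k + 3) * n6 (2 * k + 3)) == 0 && og (2 * k + 3) % x.2 == 0))

theorem tsp_all : (Cfsg.Agent.OrdDiv.spor.all tsp) = true := by decide +kernel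

end Cfsg.Agent.H177.OM
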