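import Cfsg.Agent.H190.Odd.Real
import Cfsg.Agent.H129.RealTw
import Cfsg.Agent.S1067

/-!
# TEAM ODDM (S4785): `³D₄(q)`, `q` odd

* `off_td4` : a subgroup of `³D₄(q)` meeting all real classes has index prime to the primitive prime divisors of `q^12 - 1`
* `row_td4_of` : the row, from the list of the subgroups of `³D₄(q)` containing the torus of class 12 (helper349, `KD4`)
-/

set_option autoImplicit false
set_option linter.unusedSectionVars false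

namespace Cfsg.Agent.H177.OM

open Cfsg Cfsg.Lie Cfsg.Agent.H190.Exc Cfsg.Agent.H190.Odd Cfsg.Agent.H453.OddM
open Cfsg.Agent.H129 Cfsg.Agent.H129.CycT Cfsg.Agent.H129.RealT Cfsg.Agent.H129.TorusTw Cfsg.Agent.H129.WData
open Cfsg.Agent.H436 (Prim)

universe u

variable {K : Type u} [Field K] [Fintype K] {q : ℕ}

/-- **`³D₄(q)`, class 12.** -/
theorem off_td4 (hq : IsPrimePow q) (hK : Fintype.card K = q ^ 3) {B : Subgroup ↥(twistedD4 K q)}
    (hB : ∀ x : ↥(twistedD4 K q), IsReal x → ∃ g : ↥(twistedD4 K q), g * x * g⁻¹ ∈ B) {r : ℕ} (h : Prim q 12 r) :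
    ¬ r ∣ B.index := by
  have hq2 : 2 ≤ q := hq.two_le
  have hle : q ^ 2 ≤ q ^ 4 := Nat.pow_le_pow_right (by omega) (by norm_num)
  have hN : ((q ^ 4 - q ^ 2 + 1 : ℕ) : ℤ) = 1 - (q : ℤ) ^ 2 + (q : ℤ) ^ 4 := by push_cast [Nat.cast_sub hle]; ring
  have hrN := phi12 h (by omega) hN
  have hg := prim_gt h (by omega)
  obtain ⟨T, h1, h3, h4, h5⟩ := TwT.tri_T hq hK DataD4C.hA DataD4C.chainOK DataD4C.hd_pi DataD4C.cycOK DataD4C.rootOK
    DataD4C.chain2OK DataD4C.hd2_eq (N := q ^ 4 - q ^ 2 + 1)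
    (by rw [DataD4C.fN_eq, hN]) (UntwData.coprime_of_eq (a := -(q : ℤ) + (q : ℤ) ^ 3) (by rw [hN]; ring))
  have hW := TwD4Cyc.not_dvd_W h.prime (by omega) (by omega)
  have hG : ∀ s, ¬ (r : ℤ) ∣ Gq DataD4C.B (q : ℤ) (DataD4C.R s) := fun s hs =>
    not_one h.prime (DataD4C.dvd_of_G (cast_dvd hN hrN) s hs)
  obtain ⟨y, hy⟩ := h5 r h.prime hrN hW hG
  refine not_dvd_index h1 h.prime (by rw [h3]; exact hrN) (h4 r h.prime hW hG) (fun x hx a hxa => ?_) hB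
  refine isReal_of_act hy (k := 2) hx ?_
  rw [hxa]
  refine (ord_dvd h3.dvd hx hxa).trans ⟨q ^ 2 + 1, ?_⟩
  zify [hle]
  ring

/-- `8` divides `q² - 1` for `q` odd -/
theorem eight_dvd (hq : ¬ 2 ∣ q) : 8 ∣ q ^ 2 - 1 := by
  obtain ⟨k, hk⟩ : ∃ k, q = 2 * k + 1 := ⟨q / 2, by omega⟩
  obtain ⟨c, hc⟩ : ∃ c, k * (k + 1) = c + c := Nat.even_mul_succ_self k
  refine ⟨c, ?_⟩
  rw [hk]
  refine Nat.sub_eq_of_eq_add ?_
  linear_combination 4 * hc

/-- **The row `³D₄(q)`, `q` odd.** -/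
theorem row_td4_of (hq : IsPrimePow q) (h2 : ¬ 2 ∣ q) (hK : Fintype.card K = q ^ 3)
    (hKD : ∀ M : Subgroup ↥(twistedD4 K q), (∀ r, Prim q 12 r → ¬ r ∣ M.index) →
      M = ⊤ ∨ Nat.card M ∣ 4 * (q ^ 4 - q ^ 2 + 1)) : Row ↥(twistedD4 K q) := by
  intro R hR
  have hc := hR.cov
  refine (hKD R fun r hr => off_td4 hq hK hc.2 hr).resolve_right fun hd => ?_
  have h8 := eight_dvd h2
  have h16 : 16 ∣ Nat.card ↥(twistedD4 K q) := by
    rw [Cfsg.Agent.S1067.result hq hK]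
    have h3 : 2 ∣ q ^ 6 - 1 := by
      have h4 : q ^ 2 - 1 ∣ q ^ 6 - 1 := by
        have := Nat.sub_dvd_pow_sub_pow (q ^ 2) 1 3
        rwa [one_pow, ← pow_mul] at this
      exact ((by norm_num : (2 : ℕ) ∣ 8).trans h8).trans h4
    have h5 : 8 * 2 ∣ (q ^ 2 - 1) * (q ^ 6 - 1) := Nat.mul_dvd_mul h8 h3
    rw [mul_assoc (q ^ 12)]
    exact (h5.mul_left _).mul_right _
  have h6 : 2 ^ 4 ∣ Nat.card R := by
    rw [← R.card_mul_index] at h16
    exact (Nat.Coprime.pow_left 4 ((Nat.coprime_two_left).2 hc.1)).dvd_of_dvd_mul_right (by exact_mod_cast h16)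
  have h7 := h6.trans hd
  have h9 : Odd (q ^ 4 - q ^ 2 + 1) := by
    have hle : q ^ 2 ≤ q ^ 4 := Nat.pow_le_pow_right hq.pos (by norm_num)
    refine (Nat.even_sub hle |>.2 ?_).add_one
    simp [Nat.even_pow]
  have h10 : 2 ^ 4 ∣ 4 := (Nat.Coprime.pow_left 4 ((Nat.coprime_two_left).2 h9)).dvd_of_dvd_mul_right h7
  revert h10
  decide

end Cfsg.Agent.H177.OM
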